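import Cfsg.Agent.H493.PGTwist
import Cfsg.Agent.H493.PGD4T
import Cfsg.Agent.H493.PGE6T

/-!
# Elements of given (composite) orders in the twisted tori of `³D₄(q)` and `²E₆(q)` (helper371)

* `exists_orderOf_eig` : `N ∣ c(q)` prime to `d`: an element of order `N` (general);
* `order_3D4` : every `N ∣ c(q)` (`c` with an eigenfunctional of the twisted element) is an element order of `³D₄(q)`;
* `order_2E6` : the same for `²E₆(q)`, `N` prime to `(3, q + 1)`.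
-/

set_option autoImplicit false
set_option linter.unusedSectionVars false

namespace Cfsg.Agent.H371.TwOrd

open CoxeterSystem Cfsg Cfsg.Lie Cfsg.Lie.ChevalleyDatum
open Cfsg.Agent.ChevalleyStructure Cfsg.Agent.ChevalleyStructure.Elts Cfsg.Agent.ChevalleyStructure.CoxeterGeom
  Cfsg.Agent.ChevalleyStructure.CoxeterGeomTypes Cfsg.Agent.ChevalleyStructure.NPerm
open Cfsg.Agent.Tits.Roots Cfsg.Agent.Tits.Core Cfsg.Agent.Nodes Cfsg.Agent.Nodes.Reps Cfsg.Agent.Nodes.BNOf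
  Cfsg.Agent.Nodes.RGDChev Cfsg.Agent.Nodes.Bruhat Cfsg.Agent.Nodes.SubComb Cfsg.Agent.Nodes.Coroot
open Cfsg.Agent.KFacts.RgdField Cfsg.Agent.KFacts.RgdChevCoord Cfsg.Agent.BpExc.TorCent Cfsg.Agent.BpExc.TorChev
open Cfsg.Agent.GpExc.Field Cfsg.Agent.BpExc.Tow Cfsg.Agent.BpExc.TowChev Cfsg.Agent.BpExc.Fr
  Cfsg.Agent.BpExc.LangFr Cfsg.Agent.LangThm Cfsg.Agent.BpExc Cfsg.Agent.H129.TorusChar Cfsg.Agent.H129.TorusCent
  Cfsg.Agent.H129.TorusTw Cfsg.Agent.H129.TorusMain Cfsg.Agent.H493.PGTorus Cfsg.Agent.H493.PGTwist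

universe u

section Alg

variable {D : ChevalleyDatum} {l : ℕ} {M : CoxeterMatrix (Fin l)} (hp : IsType D l M) {k : Type u} [Field k]
  [IsAlgClosed k] {W : Type*} [Group W] (cs : CoxeterSystem M W) {p e : ℕ} [Fact p.Prime] [CharP k p]
  {σ : MulAut ↥(D.group k)} {g : (Fin l → ℤ) ≃+ (Fin l → ℤ)}

/-- **Torus elements of a given order.** -/
theorem exists_t (hσ : IsFrob p e σ) (F : Fr cs hp.isCartan (TT D k) (XX D l k) σ g) {d' : ℕ}
    {B' : Fin l → Fin l → ℤ} (hB : InvC D l d' B') (hd' : d' ≠ 0) {L : (Fin l → ℤ) →+ ℤ} {r : ℕ} (hr : r ≠ 0)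
    (hrp : ¬ p ∣ r) (hL : ∀ x, (r : ℤ) ∣ L (g x) - ((p ^ e : ℕ) : ℤ) * L x) {x₀ : Fin l → ℤ} (hx₀ : L x₀ = 1) :
    ∃ t ∈ TT D k, σ t = t ∧ orderOf t = r := by
  have : NeZero r := ⟨hr⟩
  have hrk : (r : k) ≠ 0 := by
    rw [Ne, CharP.cast_eq_zero_iff k p]
    exact hrp
  have : NeZero (r : k) := ⟨hrk⟩
  obtain ⟨u, hu⟩ := HasEnoughRootsOfUnity.exists_primitiveRoot k r
  have hu0 : u ≠ 0 := hu.ne_zero hr
  have hMC : IsMC (fun x : Fin l → ℤ => u ^ L x) :=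
    ⟨by rw [map_zero, zpow_zero], fun x y => by rw [map_add, zpow_add₀ hu0]⟩
  obtain ⟨t, ht, hcX⟩ := exists_cX hp hB hd' hMC fun i =>
    IsAlgClosed.exists_pow_nat_eq _ (Nat.pos_of_ne_zero hd')
  have hone : ∀ z : ℤ, u ^ z = 1 ↔ (r : ℤ) ∣ z := fun z => hu.zpow_eq_one_iff_dvd z
  have hσt : σ t ∈ TT D k := (F.tor t).2 ht
  refine ⟨t, ht, ?_, ?_⟩
  · refine cX_inj hp hσt ht fun i => ?_
    have h1 : sr i = g (g.symm (sr i)) := (g.apply_symm_apply _).symm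
    rw [h1, cX_sigma hp cs hσ F ht, hcX, hcX, ← zpow_natCast, ← zpow_mul]
    obtain ⟨N, hN⟩ := hL (g.symm (sr i))
    have h2 : L (g (g.symm (sr i))) = L (g.symm (sr i)) * ((p ^ e : ℕ) : ℤ) + (r : ℤ) * N := by
      rw [← hN]; ring
    rw [h2, zpow_add₀ hu0, (hone ((r : ℤ) * N)).2 (dvd_mul_right _ _), mul_one]
  · have h1 : t ^ r = 1 := by
      refine cX_inj hp (pow_mem ht r) (one_mem _) fun i => ?_
      rw [cX_pow hp ht, cX_one, hcX, ← zpow_natCast, ← zpow_mul, hone]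
      exact dvd_mul_left _ _
    refine Nat.dvd_antisymm (orderOf_dvd_of_pow_eq_one h1) ?_
    have h2 : cX hp (t ^ orderOf t) x₀ = cX hp t x₀ ^ orderOf t := cX_pow hp ht _ _
    rw [pow_orderOf_eq_one, cX_one, hcX, hx₀, zpow_one, eq_comm] at h2
    exact hu.dvd_of_pow_eq_one _ h2

end Alg

section Main

variable {D : ChevalleyDatum} {l : ℕ} {M : CoxeterMatrix (Fin l)} (hp : IsType D l M) {k : Type u} [Field k]
  [IsAlgClosed k] {W : Type*} [Group W] [Finite W] (cs : CoxeterSystem M W) {p e : ℕ} [Fact p.Prime] [CharP k p]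
  {σ : MulAut ↥(D.group k)} {g : (Fin l → ℤ) ≃+ (Fin l → ℤ)}
  {G0 : Type*} [Group G0] [Finite G0] {e0 : G0 →* ↥(D.group k)}

/-- **An element of order `N`, for `N` dividing the value of a characteristic polynomial.** -/
theorem exists_orderOf_eig (hk : LocFin k) (he : 0 < e) (hσ : IsFrob p e σ)
    (F : Fr cs hp.isCartan (TT D k) (XX D l k) σ g) {d' : ℕ} {B' : Fin l → Fin l → ℤ} (hB : InvC D l d' B')
    (hd' : d' ≠ 0) (he0 : Function.Injective e0) {d : ℕ} (hd : ∀ y, σ y = y → y ^ d ∈ e0.range)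
    {w : W} {Th : Fin l → Fin l → ℤ} (hw : ∀ j, rep cs hp.isCartan w (g (sr j)) = Th j)
    {f : ℕ} {c : Fin (f + 1) → ℤ} {V : Fin (f + 1) → Fin l → ℤ} {U : Fin l → ℤ}
    (h : EigOK (fun i j => Th j i) c V U) (hc : c 0 = 1 ∨ c 0 = -1)
    {N : ℕ} (hN : N ≠ 0) (hNd : Nat.Coprime N d) (h1 : (N : ℤ) ∣ pv c ((p ^ e : ℕ) : ℤ)) :
    ∃ x : G0, orderOf x = N := by
  obtain ⟨n, z, hz, hσ', F'⟩ := exists_z hp cs hk he hσ F w
  have hNp : ¬ p ∣ N := fun h0 => ne_char hc Fact.out he ((Int.natCast_dvd_natCast.2 h0).trans h1) rfl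
  obtain ⟨t, ht, h3, h4⟩ := exists_t hp cs hσ' F' hB hd' hN hNp (hL_of_eig hp cs hw h h1)
    (x₀ := U) (lam_unit h _)
  have ho : ∀ y : ↥(D.group k), orderOf (z * y * z⁻¹) = orderOf y := fun y =>
    orderOf_injective (MulAut.conj z).toMonoidHom (MulAut.conj z).injective y
  obtain ⟨x, hx⟩ := hd _ (fix_conj hz h3)
  refine ⟨x, ?_⟩
  rw [← orderOf_injective e0 he0 x, hx, Nat.Coprime.orderOf_pow, ho, h4]
  rw [ho, h4]
  exact hNd

end Main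

end Cfsg.Agent.H371.TwOrd

namespace Cfsg.Agent.H371.TwOrd

open Cfsg Cfsg.Lie Cfsg.Lie.ChevalleyDatum Cfsg.Agent.H129 Cfsg.Agent.H129.WData
open Cfsg.Agent.ChevalleyStructure Cfsg.Agent.ChevalleyStructure.CoxeterGeom
  Cfsg.Agent.ChevalleyStructure.CoxeterGeomTypes
open Cfsg.Agent.Tits.Roots Cfsg.Agent.Nodes Cfsg.Agent.Nodes.Reps Cfsg.Agent.Nodes.RGDChev
  Cfsg.Agent.H129.TorusUntw Cfsg.Agent.BpExc.TowChev Cfsg.Agent.BpExc.Tow
open Cfsg.Agent.H493 Cfsg.Agent.H493.PGTorus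

universe u

open Cfsg.Agent.H129.TriD4 in
/-- `³D₄(q)` -/
theorem order_3D4 {K : Type u} [Field K] [Fintype K] {q : ℕ} (hq : IsPrimePow q) (hK : Fintype.card K = q ^ 3)
    {L : List (Fin 4 × Mat 4)} (hL : ChainOK PGD4T.Am L) {Th : Mat 4}
    (hTh : ∀ j, hd L (PGD4T.pi j) = Th j)
    {f : ℕ} {c : Fin (f + 1) → ℤ} {V : Fin (f + 1) → Fin 4 → ℤ} {U : Fin 4 → ℤ}
    (h : EigOK (fun i j => Th j i) c V U) (hc : c 0 = 1 ∨ c 0 = -1) {N : ℕ} (hN : N ≠ 0) (h1 : (N : ℤ) ∣ pv c q) :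
    ∃ x : ↥(twistedD4 K q), orderOf x = N := by
  have := PGD4T.finW
  obtain ⟨p, e, hpF, hpk, he, hqe, hk⟩ := PGD4T.setup hq hK
  have hqe' : (q : ℤ) = ((p ^ e : ℕ) : ℤ) := by rw [hqe]
  rw [hqe'] at h1
  exact exists_orderOf_eig RGDTwD4.hp coxeterD4.toCoxeterSystem hk he isFrob_tau (fr_tau _) TorusChar.invC_D4
    (by norm_num) (embT_injective (algebraMap K (AlgebraicClosure K)) hq hK) (d := 1)
    (fun y hy => by rw [pow_one]; exact tau_range _ hqe hq hK hy) (PGD4T.lin _ hL hTh) h hc hN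
    (Nat.coprime_one_right N) h1

open Cfsg.Agent.H493.TwE6Alg in
/-- `²E₆(q)` -/
theorem order_2E6 {K : Type u} [Field K] [Fintype K] {q : ℕ} (hq : IsPrimePow q) (hK : Fintype.card K = q ^ 2)
    {L : List (Fin 6 × Mat 6)} (hL : ChainOK PGE6T.Am L) {Th : Mat 6} (hTh : ∀ j, hd L (TwE6Alg.pi j) = Th j)
    {f : ℕ} {c : Fin (f + 1) → ℤ} {V : Fin (f + 1) → Fin 6 → ℤ} {U : Fin 6 → ℤ}
    (h : EigOK (fun i j => Th j i) c V U) (hc : c 0 = 1 ∨ c 0 = -1) {N : ℕ} (hN : N ≠ 0)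
    (hNd : Nat.Coprime N (Nat.gcd 3 (q + 1))) (h1 : (N : ℤ) ∣ pv c q) :
    ∃ x : ↥(twistedE6 K q), orderOf x = N := by
  have := PGE6.finW
  obtain ⟨p, e, hpF, hpk, he, hqe, hk⟩ := PGE6T.setup hq hK
  have hqe' : (q : ℤ) = ((p ^ e : ℕ) : ℤ) := by rw [hqe]
  rw [hqe'] at h1
  exact exists_orderOf_eig RGDTwE6.hp CoxeterMatrix.E₆.toCoxeterSystem hk he isFrob_tau (fr_tau _)
    TorusChar.invC_E6 (by norm_num) (embT_injective (algebraMap K (AlgebraicClosure K)) q) (d := Nat.gcd 3 (q + 1))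
    (fun y hy => tau_pow _ hqe hq hK hy) (PGE6T.lin _ hL hTh) h hc hN hNd h1

end Cfsg.Agent.H371.TwOrd
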